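import Cfsg.Agent.Lib.H8.Comp

/-!
# Centralizer systems in constrained systems; the dichotomy
-/

set_option autoImplicit false

namespace Cfsg.Agent.H8

open Cfsg Cfsg.FusionSystem Cfsg.Agent.H7 Cfsg.Agent.Lead

variable {Ω : Type*} [Group Ω] {S T P Q R U V W X Y Z : Subgroup Ω}
  {p : ℕ} {F : FusionSystem S} {E : FusionSystem T} {f g : Ω → Ω}

theorem isCentMor_conj {U' V' : Subgroup Ω} {χ χ' : Ω → Ω} (hχ : F.IsIso V V' χ)
    (hχ' : F.IsIso V' V χ') (e : ∀ x ∈ V, χ' (χ x) = x) (hU : F.IsIso U U' χ) (hUV : U ≤ V)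
    (hC : centralizerIn S U ≤ V) (h : F.IsCentMor U P f) :
    F.IsCentMor U' (img P χ) (fun y => χ (f (χ' y))) := by
  obtain ⟨hP, g, hg, eg, hfix⟩ := h
  have hPV : P ⊔ U ≤ V := sup_le (hP.trans hC) hUV
  have hi := IsIso.sup (hχ.mor.mono hPV) (hχ.mor.isIso_img_of_le (hP.trans hC)) hU
  have hi' := IsIso.symm_restrict hχ' hi (IsIso.le_of_le hχ hi hPV) fun x hx => e x (hPV hx)
  refine ⟨img_le_iff.2 fun x hx => ⟨hχ.mor.mem (hC (hP hx)),
    hU.map_mem_centralizer hχ.mor hUV (hC (hP hx)) (hP hx).2⟩, fun y => χ (g (χ' y)),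
    hχ.mor.comp' (hg.comp' hi'.mor hi'.mapsTo) fun y hy =>
      hg.isHomOn.mapsTo_sup (fun x hx => hC ⟨hg.mem (Subgroup.mem_sup_left hx),
        map_mem_centralizer_of_fix hg.isHomOn le_sup_right hfix (Subgroup.mem_sup_left hx)
          (hP hx).2⟩) (fun x hx => by rw [hfix x hx]; exact hUV hx) _ (hi'.mapsTo y hy),
    fun y hy => ?_, fun y hy => ?_⟩
  · obtain ⟨x, hx, rfl⟩ := (hχ.mor.mono (hP.trans hC)).mem_img.1 hy
    simp only [e x (hC (hP hx)), eg x hx]
  · obtain ⟨x, hx, rfl⟩ := hU.surj y hy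
    simp only [e x (hUV hx), hfix x hx]

variable [Finite S]

/-- Centralizer systems are transported along maps defined on `U C_S(U)`. -/
theorem cent_isoVia {U' T' : Subgroup Ω} {χ : Ω → Ω} (hU : F.IsFullyCentralized U)
    (hχ : F.IsMor X χ) (hUX : U ≤ X) (hC : centralizerIn S U ≤ X) (hi : F.IsIso U U' χ)
    (h : F.IsKNormSys U ⊥ E) {E' : FusionSystem T'} (h' : F.IsKNormSys U' ⊥ E') :
    ∃ χ', E.IsoVia E' χ χ' := by
  have h1 := hU.isIso_centralizerIn hi hχ hUX hC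
  have h2 := IsIso.sup (hχ.mono (sup_le hUX hC)) hi h1
  obtain ⟨χ', h3, e1, e2⟩ := h2.exists_symm
  have h4 := IsIso.symm_restrict h3 h1 le_sup_right fun x hx => e1 x (Subgroup.mem_sup_right hx)
  have h5 := IsIso.symm_restrict h3 hi le_sup_left fun x hx => e1 x (Subgroup.mem_sup_left hx)
  obtain rfl := h.bot_eq
  obtain rfl := h'.bot_eq
  exact ⟨χ', ⟨h1.mor.isHomOn, h4.mor.isHomOn, h1.mapsTo, h4.mapsTo,
    fun x hx => e1 x (Subgroup.mem_sup_right hx), fun x hx => e2 x (Subgroup.mem_sup_right hx)⟩,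
    fun P f hf => h'.bot_isMor_iff.2 (isCentMor_conj h2 h3 e1 hi le_sup_left le_sup_right
      (h.bot_isMor_iff.1 hf)),
    fun P f hf => h.bot_isMor_iff.2 (isCentMor_conj h3 h2 e2 h5 le_sup_left le_sup_right
      (h'.bot_isMor_iff.1 hf))⟩

omit [Finite S] in
/-- `C_{N_F^K(X)}(U) = C_F(U)` for `X ≤ U`. -/
theorem isKNormSys_bot_of_le {K : Subgroup (MulAut X)} {G : FusionSystem R}
    (hG : F.IsKNormSys X K G) (hXU : X ≤ U) (hU : U ≤ R) (h : F.IsKNormSys U ⊥ E) :
    G.IsKNormSys U ⊥ E := by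
  have e := hG.centralizerIn_eq hXU
  refine ⟨by rw [kNormalizerIn_bot, e, h.bot_eq], fun P f => ?_⟩
  rw [h.bot_isMor_iff, isKMor_bot]
  constructor
  · rintro ⟨hP, g, hg, eg, hfix⟩
    rw [← e] at hP
    exact ⟨hP, g, hG.isMor_of_ext hg (hXU.trans le_sup_right) le_rfl
      (sup_le (hP.trans centralizerIn_le) hU) (K.one_mem)
      fun x hx => by rw [hfix x (hXU hx), equivFun_one hx], eg, hfix⟩
  · rintro ⟨hP, g, hg, eg, hfix⟩
    exact ⟨e ▸ hP, g, hG.isSubsystemOf.isMor hg, eg, hfix⟩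

variable [Fact p.Prime]

omit [Finite S] in
/-- The `P × Q` lemma for an automorphism. -/
theorem fix_of_fix_centralizer [Finite Y] (hY : IsPGroup p Y) (hU : U ≤ Y) (hQ : Q ≤ Y)
    (hn : Y ≤ Subgroup.normalizer (Q : Set Ω)) {β : MulAut Y} (ho : (orderOf β).Coprime p)
    (hs : ∀ x ∈ Q, equivFun β x ∈ Q) (h1 : ∀ x ∈ U, equivFun β x = x)
    (h2 : ∀ x ∈ Q, x ∈ Subgroup.centralizer (U : Set Ω) → equivFun β x = x) :
    ∀ x ∈ Q, equivFun β x = x := by
  have hβ := isHomOn_equivFun β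
  set A := hβ.eqSub (isHomOn_id Y)
  have hA : A ≤ Y := fun _ hx => hx.1
  suffices Q ≤ A from fun x hx => (this hx).2
  by_contra hne
  obtain ⟨a, ⟨haQ, haN⟩, haA⟩ := exists_mem_normalizerIn_of_not_le hY hA hQ (hA.trans hn) hne
  have hc := inv_mul_mem_centralizer_of_fix hβ hA (fun x hx => hx.2) (hQ haQ) haN
  have hcQ := Q.mul_mem (Q.inv_mem haQ) (hs a haQ)
  have hUA : U ≤ A := fun x hx => ⟨hU hx, h1 x hx⟩
  have h3 := equivFun_pow_of_fixed (hQ haQ) (hQ hcQ) (by group) (h2 _ hcQ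
    (Subgroup.centralizer_le hUA hc)) (orderOf β)
  rw [pow_orderOf_eq_one, equivFun_one (hQ haQ), left_eq_mul] at h3
  obtain ⟨k, hk⟩ := hY ⟨_, hQ hcQ⟩
  have h4 : a⁻¹ * equivFun β a ∈ (⊥ : Subgroup Ω) := mem_of_pow_mem_of_coprime (ho.pow_right k)
    h3 (congrArg Subtype.val hk)
  exact haA ⟨hQ haQ, (inv_mul_eq_one.1 h4).symm⟩

omit [Finite S] in
theorem isNormal_inf_of_sub [Finite T] [Finite Q] (hT : IsPGroup p T) (hQp : IsPGroup p Q)
    (hE : E.IsSaturated p) (hEF : E.IsSubsystemOf F) (hQ : F.IsNormal Q) :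
    E.IsNormal (Q ⊓ T) := by
  have hsc : ∀ R, F.IsNormal R → E.StronglyClosed (R ⊓ T) := fun R hR =>
    stronglyClosed_iff.2 ⟨inf_le_right, fun P f hf x hx hxR =>
      ⟨hR.stronglyClosed.map_mem (hEF.isMor hf) hx hxR.1, hf.mem hx⟩⟩
  obtain ⟨n, hn⟩ := exists_zeta_eq hQp
  exact hE.isNormal_of_series hT (hsc Q hQ) (C := fun i => zeta Q i ⊓ T)
    (fun i j h => inf_le_inf_right T (zeta_monotone Q h)) (by simp [zeta_zero]) (n := n)
    (by rw [hn]) (fun i _ => le_inf ((Subgroup.commutator_mono inf_le_left inf_le_left).trans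
      (commutator_zeta_le Q i)) ((Subgroup.commutator_mono inf_le_right inf_le_right).trans
        (Subgroup.commutator_le_self T))) fun i _ => (hsc _ (hQ.zeta i)).weaklyClosed

/-- Centralizer systems in a constrained system are constrained. -/
theorem cent_isConstrained (hF : F.IsConstrained p) (hS : IsPGroup p S)
    (h : F.IsKNormSys U ⊥ E) (hE : E.IsSaturated p) : E.IsConstrained p := by
  have := h.finite
  have hQ := isNormal_core F
  have := finite_of_le hQ.le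
  have hW := isNormal_inf_of_sub (h.isPGroup hS) (hS.to_le hQ.le) hE h.isSubsystemOf hQ
  refine isConstrained_of_fix hE (h.isPGroup hS) hW fun P hc hr β hβ hfix ho => ?_
  have hWP := hW.le_of_centric_radical (h.isPGroup hS) hc hr
  obtain ⟨g, hg, eg, hgU⟩ := h.bot_exists_ext (isMor_of_mem_autGroup hc.le hβ)
  obtain ⟨g', hg', eg', hgQ⟩ := hQ.exists_ext hg
  have hUY : U ≤ P ⊔ U ⊔ F.core := le_sup_right.trans le_sup_left
  have hPY : P ≤ P ⊔ U ⊔ F.core := le_sup_left.trans le_sup_left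
  have := finite_of_le hg'.le
  obtain ⟨β₀, hβ₀, e₀⟩ := (hg'.isIso_self (hg'.isHomOn.mapsTo_sup (fun x hx => by
    rw [eg' x hx]
    exact Subgroup.mem_sup_left (hg.isHomOn.mapsTo_sup (fun y hy => by
      rw [eg y hy]; exact Subgroup.mem_sup_left (equivFun_mem β hy)) (fun y hy => by
      rw [hgU y hy]; exact Subgroup.mem_sup_right hy) x hx))
    fun x hx => Subgroup.mem_sup_right (hgQ.mapsTo x hx))).exists_aut
  obtain ⟨γ, ⟨hγ, hγU⟩, hγo, eγ⟩ := exists_coprime_of_mem_resImg (hPQ := hPY)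
    (A := F.autGroup _ ⊓ fixAut _ U) ⟨β₀, ⟨hβ₀, mem_fixAut.2 fun x hx hxU => by
      rw [e₀ x hx, eg' x (Subgroup.mem_sup_right hxU), hgU x hxU]⟩, fun x hx => by
      rw [e₀ x (hPY hx), eg' x (Subgroup.mem_sup_left hx), eg x hx]⟩ ho
  obtain ⟨k, hk⟩ := pElt_of_fix_centric hF.1 hS hF.isCentric_core le_sup_right hg'.le hγ
    (fix_of_fix_centralizer (hS.to_le hg'.le) hUY le_sup_right (hg'.le.trans hQ.le_normalizer) hγo
      (fun x hx => hQ.stronglyClosed.map_mem (isMor_of_mem_autGroup hg'.le hγ)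
        (Subgroup.mem_sup_right hx) hx) (fun x hx => mem_fixAut.1 hγU x (hUY hx) hx)
      fun x hx hxC => by
        have hxW : x ∈ F.core ⊓ T := ⟨hx, h.bot_eq.ge ⟨hQ.le hx, hxC⟩⟩
        rw [eγ x (hWP hxW), mem_fixAut.1 hfix x (hWP hxW) hxW])
  have h1 : γ = 1 := eq_one_of_isPGroup_of_coprime (isPGroup_zpowers_of_pow hk)
    (Subgroup.mem_zpowers γ) hγo
  exact mulAut_eq_one fun x hx => by rw [← eγ x hx, h1, equivFun_one (hPY hx)]

/-- If `C_F(U)` is constrained, so is `N_F(U)`. -/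
theorem norm_isConstrained_of_cent (hS : IsPGroup p S) (hU : U ≤ S) {N : FusionSystem R}
    (hN : F.IsKNormSys U ⊤ N) (hNs : N.IsSaturated p) (h : F.IsKNormSys U ⊥ E)
    (hE : E.IsConstrained p) : N.IsConstrained p := by
  have := hN.finite
  exact isConstrained_of_cent hNs (hN.isPGroup hS) (hN.isNormal_top hU)
    (isKNormSys_bot_of_le hN le_rfl (hN.le_top hU) h) hE

/-- If `C_F(X)` is constrained for the fully normalized conjugates `X` of `X₀ ≤ Z(U)`, then
`C_F(U)` is constrained. -/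
theorem cent_isConstrained_of_le (hF : F.IsSaturated p) (hS : IsPGroup p S)
    (hU : F.IsFullyCentralized U) (hX : X ≤ centralizerIn U U)
    (hc : ∀ X', F.IsConj X X' → F.IsFullyNormalized X' → ∀ C : FusionSystem (centralizerIn S X'),
      F.IsKNormSys X' ⊥ C → C.IsConstrained p) (h : F.IsKNormSys U ⊥ E) : E.IsConstrained p := by
  have hXU := hX.trans centralizerIn_le
  obtain ⟨X', χ, hfn, hχ, hχX⟩ := hF.exists_isFullyNormalized hS (hXU.trans hU.le)
  have hUC : U ≤ centralizerIn S X := fun u hu => ⟨hU.le hu, fun x hx => ((hX hx).2 u hu).symm⟩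
  have hUN := hUC.trans centralizerIn_le_normalizerIn
  have hCN : centralizerIn S U ≤ normalizerIn S X :=
    (centralizerIn_anti hXU).trans centralizerIn_le_normalizerIn
  have hi := hχ.isIso_img_of_le hUN
  obtain ⟨E', hE'⟩ := exists_isKNormSys F hi.le_right ⊥ rfl
  obtain ⟨χ', hv⟩ := cent_isoVia hU hχ hUN hCN hi h hE'
  obtain ⟨C, hC⟩ := exists_isKNormSys F hfn.le ⊥ kNormalizerIn_bot.symm
  refine hv.isConstrained_iff.1 (cent_isConstrained (hc X' hχX.isConj hfn C hC)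
    (hS.to_le centralizerIn_le) (isKNormSys_bot_of_le hC (IsIso.le_of_le hi hχX hXU)
      (img_le_iff.2 fun u hu => ⟨hχ.mem (hUN hu), hχX.map_mem_centralizer hχ
        (le_normalizerIn hχX.le_left) (hUN hu) (hUC hu).2⟩) hE')
    (hE'.isSaturated hF hS (hF.isFullyKNormalized_of_fc hS (hU.of_isIso hi hχ hUN hCN) bot_le)))

theorem isOfCharacteristicPType_of (hF : F.IsSaturated p) (hS : IsPGroup p S)
    (hc : ∀ X : Subgroup Ω, Nat.card X = p → F.IsFullyNormalized X →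
      ∀ C : FusionSystem (centralizerIn S X), F.IsKNormSys X ⊥ C → C.IsConstrained p) :
    F.IsOfCharacteristicPType p := by
  intro U hU hfn N hN
  have := finite_of_le hfn.le
  have hUp := hS.to_le hfn.le
  obtain ⟨x, hx, ho⟩ := exists_orderOf_eq_prime_of_ne_bot (hUp.to_le centralizerIn_le)
    (centralizerIn_self_ne_bot hUp hU)
  obtain ⟨E, hE⟩ := exists_isKNormSys F hfn.le ⊥ rfl
  exact norm_isConstrained_of_cent hS hfn.le hN.isKNormSys (hN.isSaturated hF hS hfn) hE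
    (cent_isConstrained_of_le hF hS (hF.isFullyCentralized hS hfn) (Subgroup.zpowers_le.2 hx)
      (fun X hX => hc X (by rw [← hX.card_eq, Nat.card_zpowers, ho])) hE)

theorem isOfCharacteristicPType_or (hF : F.IsSaturated p) (hS : IsPGroup p S) :
    F.IsOfCharacteristicPType p ∨ F.IsOfComponentType p := by
  refine or_iff_not_imp_right.2 fun h => isOfCharacteristicPType_of hF hS fun X hX hfn C hC => ?_
  have hC' := isCentralizerSystem_iff_isKNormSys.2 hC
  exact (isConstrained_iff_no_component (hC'.isSaturated hF hS (hF.isFullyCentralized hS hfn))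
    (hS.to_le centralizerIn_le)).2 fun h1 => h ⟨X, hX, hfn, C, hC', h1⟩

end Cfsg.Agent.H8
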