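import Cfsg.Prelude.Def_Spor_J2

/-! A computable model of the icosians (helper8). -/

set_option autoImplicit false
open Cfsg Cfsg.Spor Quaternion

namespace Cfsg.Agent.H8

/-- Quaternions over `ℚ(τ)`. -/
@[ext] structure HQ where
  (a b c d e f g h : ℚ)
deriving DecidableEq

namespace HQ

instance instZero : Zero HQ := ⟨⟨0, 0, 0, 0, 0, 0, 0, 0⟩⟩
instance instOne : One HQ := ⟨⟨1, 0, 0, 0, 0, 0, 0, 0⟩⟩
instance instAdd : Add HQ := ⟨fun x y => ⟨x.a + y.a, x.b + y.b, x.c + y.c, x.d + y.d, x.e + y.e,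
  x.f + y.f, x.g + y.g, x.h + y.h⟩⟩
instance instNeg : Neg HQ := ⟨fun x => ⟨-x.a, -x.b, -x.c, -x.d, -x.e, -x.f, -x.g, -x.h⟩⟩
instance instStar : Star HQ := ⟨fun x => ⟨x.a, x.b, -x.c, -x.d, -x.e, -x.f, -x.g, -x.h⟩⟩
instance instMul : Mul HQ := ⟨fun x y =>
  ⟨x.a * y.a + x.b * y.b - (x.c * y.c + x.d * y.d) - (x.e * y.e + x.f * y.f) -
      (x.g * y.g + x.h * y.h),
    x.a * y.b + x.b * (y.a + y.b) - (x.c * y.d + x.d * (y.c + y.d)) -
      (x.e * y.f + x.f * (y.e + y.f)) - (x.g * y.h + x.h * (y.g + y.h)),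
    x.a * y.c + x.b * y.d + (x.c * y.a + x.d * y.b) + (x.e * y.g + x.f * y.h) -
      (x.g * y.e + x.h * y.f),
    x.a * y.d + x.b * (y.c + y.d) + (x.c * y.b + x.d * (y.a + y.b)) +
      (x.e * y.h + x.f * (y.g + y.h)) - (x.g * y.f + x.h * (y.e + y.f)),
    x.a * y.e + x.b * y.f - (x.c * y.g + x.d * y.h) + (x.e * y.a + x.f * y.b) +
      (x.g * y.c + x.h * y.d),
    x.a * y.f + x.b * (y.e + y.f) - (x.c * y.h + x.d * (y.g + y.h)) +
      (x.e * y.b + x.f * (y.a + y.b)) + (x.g * y.d + x.h * (y.c + y.d)),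
    x.a * y.g + x.b * y.h + (x.c * y.e + x.d * y.f) - (x.e * y.c + x.f * y.d) +
      (x.g * y.a + x.h * y.b),
    x.a * y.h + x.b * (y.g + y.h) + (x.c * y.f + x.d * (y.e + y.f)) -
      (x.e * y.d + x.f * (y.c + y.d)) + (x.g * y.b + x.h * (y.a + y.b))⟩⟩

theorem zero_def : (0 : HQ) = ⟨0, 0, 0, 0, 0, 0, 0, 0⟩ := rfl
theorem one_def : (1 : HQ) = ⟨1, 0, 0, 0, 0, 0, 0, 0⟩ := rfl
theorem add_def (x y : HQ) : x + y = ⟨x.a + y.a, x.b + y.b, x.c + y.c, x.d + y.d, x.e + y.e,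
  x.f + y.f, x.g + y.g, x.h + y.h⟩ := rfl
theorem neg_def (x : HQ) : -x = ⟨-x.a, -x.b, -x.c, -x.d, -x.e, -x.f, -x.g, -x.h⟩ := rfl
theorem star_def (x : HQ) : star x = ⟨x.a, x.b, -x.c, -x.d, -x.e, -x.f, -x.g, -x.h⟩ := rfl
theorem mul_def (x y : HQ) : x * y =
  ⟨x.a * y.a + x.b * y.b - (x.c * y.c + x.d * y.d) - (x.e * y.e + x.f * y.f) -
      (x.g * y.g + x.h * y.h),
    x.a * y.b + x.b * (y.a + y.b) - (x.c * y.d + x.d * (y.c + y.d)) -
      (x.e * y.f + x.f * (y.e + y.f)) - (x.g * y.h + x.h * (y.g + y.h)),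
    x.a * y.c + x.b * y.d + (x.c * y.a + x.d * y.b) + (x.e * y.g + x.f * y.h) -
      (x.g * y.e + x.h * y.f),
    x.a * y.d + x.b * (y.c + y.d) + (x.c * y.b + x.d * (y.a + y.b)) +
      (x.e * y.h + x.f * (y.g + y.h)) - (x.g * y.f + x.h * (y.e + y.f)),
    x.a * y.e + x.b * y.f - (x.c * y.g + x.d * y.h) + (x.e * y.a + x.f * y.b) +
      (x.g * y.c + x.h * y.d),
    x.a * y.f + x.b * (y.e + y.f) - (x.c * y.h + x.d * (y.g + y.h)) +
      (x.e * y.b + x.f * (y.a + y.b)) + (x.g * y.d + x.h * (y.c + y.d)),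
    x.a * y.g + x.b * y.h + (x.c * y.e + x.d * y.f) - (x.e * y.c + x.f * y.d) +
      (x.g * y.a + x.h * y.b),
    x.a * y.h + x.b * (y.g + y.h) + (x.c * y.f + x.d * (y.e + y.f)) -
      (x.e * y.d + x.f * (y.c + y.d)) + (x.g * y.b + x.h * (y.a + y.b))⟩ := rfl

theorem tau_sq : tau * tau = tau + 1 := by
  have := Real.mul_self_sqrt (show (0 : ℝ) ≤ 5 by norm_num)
  unfold tau; linear_combination this / 4

theorem tau_indep {x y : ℚ} (h : (x : ℝ) + y * tau = 0) : x = 0 ∧ y = 0 := by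
  have hy : y = 0 := by
    by_contra hy
    refine (Nat.Prime.irrational_sqrt (p := 5) (by norm_num)).ne_rat (-2 * x / y - 1) ?_
    have : (y : ℝ) ≠ 0 := by exact_mod_cast hy
    unfold tau at h
    push_cast; field_simp; linear_combination 2 * h
  subst hy
  exact ⟨by simpa using h, rfl⟩

/-- The real quaternion. -/
noncomputable def val (x : HQ) : ℍ[ℝ] :=
  ⟨x.a + x.b * tau, x.c + x.d * tau, x.e + x.f * tau, x.g + x.h * tau⟩

theorem val_re (x : HQ) : (val x).re = x.a + x.b * tau := rfl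
theorem val_imI (x : HQ) : (val x).imI = x.c + x.d * tau := rfl
theorem val_imJ (x : HQ) : (val x).imJ = x.e + x.f * tau := rfl
theorem val_imK (x : HQ) : (val x).imK = x.g + x.h * tau := rfl

theorem val_injective : Function.Injective val := fun x y h => by
  have key : ∀ {a b a' b' : ℚ}, (a : ℝ) + b * tau = a' + b' * tau → a = a' ∧ b = b' :=
    fun {a b a' b'} h => (tau_indep (x := a - a') (y := b - b') (by
      push_cast; linear_combination h)).imp sub_eq_zero.1 sub_eq_zero.1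
  obtain ⟨h1, h2, h3, h4⟩ := QuaternionAlgebra.mk.inj h
  exact HQ.ext (key h1).1 (key h1).2 (key h2).1 (key h2).2 (key h3).1 (key h3).2 (key h4).1
    (key h4).2

theorem val_add (x y : HQ) : val (x + y) = val x + val y := by
  ext <;> simp [val_re, val_imI, val_imJ, val_imK, add_def] <;> ring

theorem val_mul (x y : HQ) : val (x * y) = val x * val y := by
  ext <;> simp only [val_re, val_imI, val_imJ, val_imK, mul_def, re_mul, imI_mul, imJ_mul, imK_mul] <;> push_cast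
  · linear_combination -(x.b * y.b - x.d * y.d - x.f * y.f - x.h * y.h : ℝ) * tau_sq
  · linear_combination -(x.b * y.d + x.d * y.b + x.f * y.h - x.h * y.f : ℝ) * tau_sq
  · linear_combination -(x.b * y.f - x.d * y.h + x.f * y.b + x.h * y.d : ℝ) * tau_sq
  · linear_combination -(x.b * y.h + x.d * y.f - x.f * y.d + x.h * y.b : ℝ) * tau_sq

theorem val_zero : val 0 = 0 := by ext <;> simp [val, zero_def]
theorem val_one : val 1 = 1 := by ext <;> simp [val, one_def]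
theorem val_neg (x : HQ) : val (-x) = -val x := by ext <;> simp [val_re, val_imI, val_imJ, val_imK, neg_def] <;> ring
theorem val_star (x : HQ) : val (star x) = star (val x) := by ext <;> simp [val_re, val_imI, val_imJ, val_imK, star_def] <;> ring

instance instRing : Ring HQ := Ring.ofMinimalAxioms
  (fun _ _ _ => val_injective (by simp only [val_add, add_assoc]))
  (fun _ => val_injective (by simp only [val_add, val_zero, zero_add]))
  (fun _ => val_injective (by simp only [val_add, val_zero, val_neg, neg_add_cancel]))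
  (fun _ _ _ => val_injective (by simp only [val_mul, mul_assoc]))
  (fun _ => val_injective (by simp only [val_mul, val_one, one_mul]))
  (fun _ => val_injective (by simp only [val_mul, val_one, mul_one]))
  (fun _ _ _ => val_injective (by simp only [val_mul, val_add, mul_add]))
  (fun _ _ _ => val_injective (by simp only [val_mul, val_add, add_mul]))

instance instStarRing : StarRing HQ where
  star_involutive _ := val_injective (by simp only [val_star, star_star])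
  star_mul _ _ := val_injective (by simp only [val_star, val_mul, star_mul])
  star_add _ _ := val_injective (by simp only [val_star, val_add, star_add])

/-- The embedding in the real quaternions. -/
noncomputable def phi : HQ →+* ℍ[ℝ] := ⟨⟨⟨val, val_one⟩, val_mul⟩, val_zero, val_add⟩

theorem phi_star (x : HQ) : phi (star x) = star (phi x) := val_star x

theorem phi_inj {x y : HQ} : phi x = phi y ↔ x = y := val_injective.eq_iff

theorem two_def : (2 : HQ) = ⟨2, 0, 0, 0, 0, 0, 0, 0⟩ := by decide +kernel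

theorem eq_zero_of_eq_neg {x : HQ} (h : x = -x) : x = 0 := by
  rw [neg_def, HQ.ext_iff] at h
  ext <;> simp only [zero_def] <;> linarith

/-- One half. -/
def hf : HQ := ⟨1 / 2, 0, 0, 0, 0, 0, 0, 0⟩
/-- `i`. -/
def qi : HQ := ⟨0, 0, 1, 0, 0, 0, 0, 0⟩
/-- `j`. -/
def qj : HQ := ⟨0, 0, 0, 0, 1, 0, 0, 0⟩
/-- The second generator of the icosians. -/
def w2 : HQ := ⟨1 / 2, 0, 1 / 2, -1 / 2, 0, 0, 0, 1 / 2⟩
/-- `h`. -/
def hh : HQ := ⟨1 / 2, -1, 1 / 2, 0, 1 / 2, 0, 1 / 2, 0⟩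
/-- The conjugate of `h`. -/
def kk : HQ := ⟨1 / 2, -1, -1 / 2, 0, -1 / 2, 0, -1 / 2, 0⟩

theorem star_hh : star hh = kk := by decide +kernel
theorem star_kk : star kk = hh := by decide +kernel
theorem hh_kk : hh * kk = 2 := by decide +kernel
theorem kk_hh : kk * hh = 2 := by decide +kernel
theorem hf_comm (x : HQ) : hf * x = x * hf := by ext <;> simp [hf, mul_def, mul_comm]
theorem hf_two (x : HQ) : hf * (2 * x) = x := by
  rw [← mul_assoc, show hf * 2 = 1 by decide +kernel, one_mul]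
theorem two_hf (x : HQ) : 2 * (hf * x) = x := by
  rw [← mul_assoc, show 2 * hf = 1 by decide +kernel, one_mul]

theorem phi_hf_mul (x : HQ) : phi (hf * x) = (1 / 2 : ℝ) • phi x := by
  change val _ = _ • val x
  ext <;> simp [val_re, val_imI, val_imJ, val_imK, hf, mul_def] <;> ring

theorem phi_qi : phi qi = qI := by change val _ = _; ext <;> simp [val, qi, qI]
theorem phi_w2 : phi w2 = ⟨1 / 2, sig / 2, 0, tau / 2⟩ := by
  change val _ = _; ext <;> simp [val, w2, sig, tau] <;> ring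
theorem phi_hh : phi hh = icoH := by
  change val _ = _; ext <;> simp [val, hh, icoH, tau]; ring

/-- The icosian with given coordinates. -/
def el (n0 n1 n2 n3 n4 n5 n6 n7 : ℤ) : HQ :=
  ⟨n0 + (n4 + n6) / 2, n1 + (n5 + n7) / 2, n2 + (n4 + n6 - n7) / 2, n3 + (n5 - n6) / 2,
    n4 / 2, n5 / 2, (n4 + n7) / 2, (n5 + n6 + n7) / 2⟩

/-- The icosians. -/
noncomputable def ico : Subring HQ := icosians.comap phi

theorem qi_mem : qi ∈ ico := by
  change phi qi ∈ icosians; rw [phi_qi]; exact Subring.subset_closure (by simp)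

theorem w2_mem : w2 ∈ ico := by
  change phi w2 ∈ icosians; rw [phi_w2]; exact Subring.subset_closure (.inr rfl)

theorem el_mem (n0 n1 n2 n3 n4 n5 n6 n7 : ℤ) : el n0 n1 n2 n3 n4 n5 n6 n7 ∈ ico := by
  have hw : ∀ l : List Bool, (l.map fun b => cond b qi w2).prod ∈ ico := fun l =>
    list_prod_mem fun x hx => by
      obtain ⟨b, -, rfl⟩ := List.mem_map.1 hx
      cases b
      exacts [w2_mem, qi_mem]
  have h1 : (⟨1 / 2, 0, 1 / 2, 0, 1 / 2, 0, 1 / 2, 0⟩ : HQ) ∈ ico := by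
    convert hw [true, true, true, false, true, false, true, false, false, true] using 1
    decide +kernel
  have h2 : (⟨0, 1, 0, 0, 0, 0, 0, 0⟩ : HQ) ∈ ico := by
    convert add_mem (hw [true, true, false, true, false, false, true, false])
      (hw [false, false, true, false, true, false, false]) using 1
    decide +kernel
  have h3 : ∀ m n : ℤ, (⟨m, n, 0, 0, 0, 0, 0, 0⟩ : HQ) ∈ ico := fun m n => by
    have key : ∀ m : ℤ, (m : HQ) = ⟨m, 0, 0, 0, 0, 0, 0, 0⟩ := fun m => phi_inj.1 (by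
      rw [map_intCast]; change _ = val _; ext <;> simp [val])
    convert add_mem (intCast_mem ico m) (mul_mem (intCast_mem ico n) h2) using 1
    ext <;> simp [key, add_def, mul_def]
  convert add_mem (add_mem (add_mem (h3 n0 n1) (mul_mem (h3 n2 n3) qi_mem)) (mul_mem (h3 n4 n5) h1))
    (mul_mem (h3 n6 n7) w2_mem) using 1
  ext <;> simp [el, add_def, mul_def, qi, w2] <;> ring

theorem exists_el {x : ℍ[ℝ]} (hx : x ∈ icosians) :
    ∃ n0 n1 n2 n3 n4 n5 n6 n7, phi (el n0 n1 n2 n3 n4 n5 n6 n7) = x := by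
  rw [icosians, Subring.mem_closure_iff] at hx
  induction hx using AddSubgroup.closure_induction with
  | mem x hx =>
    induction hx using Submonoid.closure_induction_right with
    | one => exact ⟨1, 0, 0, 0, 0, 0, 0, 0, by rw [← map_one phi, phi_inj]; decide +kernel⟩
    | mul_right x _ y hy ih =>
      obtain ⟨n0, n1, n2, n3, n4, n5, n6, n7, rfl⟩ := ih
      rcases hy with rfl | rfl
      · refine ⟨(-1) * n2 + (-2) * n4 + (1) * n5, (-1) * n3 + (1) * n4 + (-1) * n5, (1) * n0 + (-2) * n4 + (1) * n5 + (1) * n6 + (-1) * n7, (1) * n1 + (1) * n4 + (-1) * n5 + (-1) * n6, (1) * n4 + (1) * n7, (1) * n5 + (1) * n6 + (1) * n7, (2) * n4 + (-2) * n5 + (-1) * n6, (-2) * n4 + (-1) * n7, ?_⟩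
        rw [← phi_qi, ← map_mul, phi_inj]
        ext <;> simp [el, mul_def, qi] <;> ring
      · refine ⟨(-1) * n2 + (1) * n3 + (-2) * n4 + (1) * n5 + (-1) * n6, (1) * n2 + (1) * n4 + (-1) * n5 + (-1) * n7, (1) * n3 + (-2) * n4 + (2) * n5, (1) * n2 + (1) * n3 + (2) * n4, (-1) * n3 + (1) * n4 + (-1) * n5, (-1) * n2 + (-1) * n3 + (-1) * n4, (1) * n0 + (1) * n2 + (3) * n4 + (-1) * n5 + (1) * n6, (1) * n1 + (1) * n3 + (-1) * n4 + (2) * n5 + (1) * n7, ?_⟩
        rw [← phi_w2, ← map_mul, phi_inj]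
        ext <;> simp [el, mul_def, w2] <;> ring
  | zero => exact ⟨0, 0, 0, 0, 0, 0, 0, 0, by rw [← map_zero phi, phi_inj]; decide +kernel⟩
  | add x y _ _ h1 h2 =>
    obtain ⟨n0, n1, n2, n3, n4, n5, n6, n7, rfl⟩ := h1
    obtain ⟨m0, m1, m2, m3, m4, m5, m6, m7, rfl⟩ := h2
    refine ⟨n0 + m0, n1 + m1, n2 + m2, n3 + m3, n4 + m4, n5 + m5, n6 + m6, n7 + m7, ?_⟩
    rw [← map_add, phi_inj]
    ext <;> simp [el, add_def] <;> ring
  | neg x _ h =>
    obtain ⟨n0, n1, n2, n3, n4, n5, n6, n7, rfl⟩ := h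
    refine ⟨-n0, -n1, -n2, -n3, -n4, -n5, -n6, -n7, ?_⟩
    rw [← map_neg, phi_inj]
    ext <;> simp [el, neg_def] <;> ring

theorem exists_ico {x : ℍ[ℝ]} (hx : x ∈ icosians) : ∃ y ∈ ico, phi y = x := by
  obtain ⟨n0, n1, n2, n3, n4, n5, n6, n7, h⟩ := exists_el hx
  exact ⟨_, el_mem _ _ _ _ _ _ _ _, h⟩

/-- Membership test. -/
def InI (x : HQ) : Prop := (2 * x.e).den = 1 ∧ (2 * x.f).den = 1 ∧ (2 * (x.g - x.e)).den = 1 ∧
  (2 * (x.h - x.f)).den = 1 ∧ (x.a - x.e - x.h + x.f + x.g - x.e).den = 1 ∧ (x.b - x.f - x.g + x.e).den = 1 ∧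
  (x.c - x.e - x.h + x.f + 2 * (x.g - x.e)).den = 1 ∧ (x.d - x.f + x.h - x.f - x.g + x.e).den = 1

instance instDecInI : DecidablePred InI := fun x => by unfold InI; infer_instance

theorem mem_ico_iff {x : HQ} : x ∈ ico ↔ ∃ n0 n1 n2 n3 n4 n5 n6 n7,
    el n0 n1 n2 n3 n4 n5 n6 n7 = x :=
  ⟨fun h => by simpa only [phi_inj] using exists_el h, fun ⟨_, _, _, _, _, _, _, _, h⟩ =>
    h ▸ el_mem _ _ _ _ _ _ _ _⟩

theorem mem_ico {x : HQ} : x ∈ ico ↔ InI x := by
  have key : ∀ {q : ℚ}, q.den = 1 ↔ ∃ n : ℤ, (n : ℚ) = q := fun {q} =>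
    ⟨fun h => ⟨q.num, (Rat.den_eq_one_iff q).1 h⟩, fun ⟨n, h⟩ => h ▸ rfl⟩
  simp only [mem_ico_iff, InI, key]
  constructor
  · rintro ⟨n0, n1, n2, n3, n4, n5, n6, n7, rfl⟩
    refine ⟨⟨n4, ?_⟩, ⟨n5, ?_⟩, ⟨n7, ?_⟩, ⟨n6 + n7, ?_⟩, ⟨n0, ?_⟩, ⟨n1, ?_⟩, ⟨n2, ?_⟩, ⟨n3, ?_⟩⟩ <;>
      simp [el] <;> ring
  · rintro ⟨⟨n4, h4⟩, ⟨n5, h5⟩, ⟨n7, h7⟩, ⟨n6, h6⟩, ⟨n0, h0⟩, ⟨n1, h1⟩, ⟨n2, h2⟩, ⟨n3, h3⟩⟩
    refine ⟨n0, n1, n2, n3, n4, n5, n6 - n7, n7, ?_⟩
    ext <;> simp only [el] <;> push_cast <;> linarith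

theorem star_mem_ico {x : HQ} (h : x ∈ ico) : star x ∈ ico := by
  obtain ⟨n0, n1, n2, n3, n4, n5, n6, n7, rfl⟩ := mem_ico_iff.1 h
  refine mem_ico_iff.2 ⟨n0 + n4 + n6, n1 + n5 + n7, -n2, -n3, -n4, -n5, -n6, -n7, ?_⟩
  ext <;> simp [el, star_def] <;> ring

theorem hh_mem : hh ∈ ico := mem_ico.2 (by decide +kernel)
theorem kk_mem : kk ∈ ico := mem_ico.2 (by decide +kernel)

end HQ

end Cfsg.Agent.H8
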