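import Cfsg.Agent.Lib.H8.Ico

/-! The icosian Leech lattice and the matrix group `2·J₂` in the computable model (helper8). -/

set_option autoImplicit false
open Cfsg Cfsg.Spor Quaternion Matrix

namespace Cfsg.Agent.H8.HQ

/-- The icosian Leech lattice. -/
def L0 : Set (Fin 3 → HQ) := {v | (∀ t, v t ∈ ico) ∧ hf * ((v 0 - v 1) * kk) ∈ ico ∧
  hf * ((v 1 - v 2) * kk) ∈ ico ∧ hf * ((v 0 + v 1 + v 2) * hh) ∈ ico}

instance instDecIco : DecidablePred (· ∈ ico) := fun _ => decidable_of_iff _ mem_ico.symm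

instance instDecL0 : DecidablePred (· ∈ L0) := fun v => by unfold L0; infer_instance

theorem hf_mul_two (x : HQ) : hf * (x * 2) = x := by rw [mul_two, ← two_mul, hf_two]

theorem ideal_iff {x a b : HQ} (h1 : a * b = 2) (h2 : b * a = 2) :
    hf * (x * b) ∈ ico ↔ ∃ y ∈ ico, x = y * a :=
  ⟨fun h => ⟨_, h, by rw [mul_assoc, mul_assoc, h2, hf_mul_two]⟩, fun ⟨y, hy, e⟩ => by
    rwa [e, mul_assoc, h1, hf_mul_two]⟩

theorem phi_mem_leftIdeal {x a : HQ} : phi x ∈ leftIdeal (phi a) ↔ ∃ y ∈ ico, x = y * a :=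
  ⟨fun ⟨y, hy, e⟩ => by
    obtain ⟨y, hy', rfl⟩ := exists_ico hy
    exact ⟨y, hy', by rwa [← map_mul, phi_inj] at e⟩,
    fun ⟨y, hy, e⟩ => ⟨phi y, hy, by rw [e, map_mul]⟩⟩

theorem mem_L0 {v : Fin 3 → HQ} : v ∈ L0 ↔ (∀ t, v t ∈ ico) ∧ (∃ y ∈ ico, v 0 - v 1 = y * hh) ∧
    (∃ y ∈ ico, v 1 - v 2 = y * hh) ∧ ∃ y ∈ ico, v 0 + v 1 + v 2 = y * kk := by
  rw [← ideal_iff hh_kk kk_hh, ← ideal_iff hh_kk kk_hh, ← ideal_iff kk_hh hh_kk]; rfl

theorem phi_mem_icoLeech {v : Fin 3 → HQ} : phi ∘ v ∈ icoLeech ↔ v ∈ L0 := by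
  rw [mem_L0, ← phi_mem_leftIdeal, ← phi_mem_leftIdeal, ← phi_mem_leftIdeal, ← star_hh, phi_star,
    phi_hh, map_sub, map_sub, map_add, map_add]
  rfl

/-- The two lattices. -/
noncomputable def eqv : L0 ≃ icoLeech :=
  Equiv.ofBijective (fun v => ⟨phi ∘ v.1, phi_mem_icoLeech.2 v.2⟩) ⟨fun _ _ h =>
    Subtype.ext (funext fun t => phi_inj.1 (congrFun (congrArg Subtype.val h) t)), fun v => by
      choose w _ hw using fun t => exists_ico (v.2.1 t)
      have : phi ∘ w = v.1 := funext hw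
      exact ⟨⟨w, phi_mem_icoLeech.1 (this ▸ v.2)⟩, Subtype.ext this⟩⟩

/-- The Hermitian product. -/
def dot (x r : Fin 3 → HQ) : HQ := x 0 * star (r 0) + x 1 * star (r 1) + x 2 * star (r 2)

theorem phi_dot (x r : Fin 3 → HQ) : phi (dot x r) = qip (phi ∘ x) (phi ∘ r) := by
  simp [dot, qip, Fin.sum_univ_three, phi_star]

theorem dot_identity {R : Type*} [Ring R] {h k z A B C z₁ A₁ B₁ C₁ : R} (hk : h * k = 2)
    (kh : k * h = 2) (hz : 3 * z + (A + 2 * B) * h = C * k) (hz₁ : 3 * z₁ + k * (A₁ + 2 * B₁) = h * C₁) :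
    (z + (A + B) * h) * (z₁ + k * (A₁ + B₁)) + (z + B * h) * (z₁ + k * B₁) + z * z₁ =
      2 * (C * C₁ - z * h * C₁ - (A + 2 * B) * (A₁ + 2 * B₁) - (A + 2 * B) * h * z₁ +
        (A + B) * (A₁ + B₁) + B * B₁) := by
  linear_combination (norm := noncomm_ring) z * hz₁ + hz * (h * C₁) + ((A + 2 * B) * h) * hz₁ +
    C * kh * C₁ - (A + 2 * B) * hk * (A₁ + 2 * B₁) + (A + B) * hk * (A₁ + B₁) + B * hk * B₁

theorem L0_param {x : Fin 3 → HQ} (hx : x ∈ L0) : ∃ A ∈ ico, ∃ B ∈ ico, ∃ C ∈ ico,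
    x 0 = x 2 + (A + B) * hh ∧ x 1 = x 2 + B * hh ∧ 3 * x 2 + (A + 2 * B) * hh = C * kk := by
  obtain ⟨-, ⟨A, hA, e1⟩, ⟨B, hB, e2⟩, C, hC, e3⟩ := mem_L0.1 hx
  refine ⟨A, hA, B, hB, C, hC, ?_, ?_, ?_⟩
  · linear_combination (norm := noncomm_ring) e1 + e2
  · linear_combination (norm := noncomm_ring) e2
  · linear_combination (norm := noncomm_ring) e3 - e1 - 2 * e2

theorem hf_dot_mem {x r : Fin 3 → HQ} (hx : x ∈ L0) (hr : r ∈ L0) : hf * dot x r ∈ ico := by
  obtain ⟨A, hA, B, hB, C, hC, e0, e1, e2⟩ := L0_param hx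
  obtain ⟨A', hA', B', hB', C', hC', e0', e1', e2'⟩ := L0_param hr
  have h2 : (2 : HQ) ∈ ico := ofNat_mem ico 2
  have k1 := congrArg star e2'
  simp only [star_add, star_mul, star_ofNat, star_hh, star_kk] at k1
  replace k1 : 3 * star (r 2) + kk * (star A' + 2 * star B') = hh * star C' := by
    linear_combination (norm := noncomm_ring) k1
  rw [dot, e0, e1, e0', e1']
  simp only [star_add, star_mul, star_hh]
  rw [dot_identity hh_kk kk_hh e2 k1, hf_two]
  have := hx.1 2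
  have := star_mem_ico (hr.1 2)
  have := star_mem_ico hA'
  have := star_mem_ico hB'
  have := star_mem_ico hC'
  have := hh_mem
  apply_rules (maxDepth := 100) [add_mem, neg_mem, mul_mem]

theorem sub_smul_mem {x r : Fin 3 → HQ} (hx : x ∈ L0) (hr : r ∈ L0) {c : HQ} (hc : c ∈ ico) :
    (fun t => x t - c * r t) ∈ L0 := by
  obtain ⟨h0, ⟨A, hA, e1⟩, ⟨B, hB, e2⟩, C, hC, e3⟩ := mem_L0.1 hx
  obtain ⟨h0', ⟨A', hA', e1'⟩, ⟨B', hB', e2'⟩, C', hC', e3'⟩ := mem_L0.1 hr
  refine mem_L0.2 ⟨fun t => sub_mem (h0 t) (mul_mem hc (h0' t)),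
    ⟨_, sub_mem hA (mul_mem hc hA'), ?_⟩, ⟨_, sub_mem hB (mul_mem hc hB'), ?_⟩,
    _, sub_mem hC (mul_mem hc hC'), ?_⟩
  · linear_combination (norm := noncomm_ring) e1 - c * e1'
  · linear_combination (norm := noncomm_ring) e2 - c * e2'
  · linear_combination (norm := noncomm_ring) e3 - c * e3'

/-- Matrices. -/
abbrev M3 := Matrix (Fin 3) (Fin 3) HQ

/-- The matrix of a reflection. -/
def rf (r : Fin 3 → HQ) : M3 :=
  Matrix.of fun i j => (if i = j then 1 else 0) - hf * (star (r i) * r j)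

theorem vecMul_rf (x r : Fin 3 → HQ) : x ᵥ* rf r = fun t => x t - hf * dot x r * r t := by
  funext t
  simp only [vecMul, dotProduct, rf, of_apply, mul_sub, Finset.sum_sub_distrib, mul_ite, mul_one,
    mul_zero, Finset.sum_ite_eq', Finset.mem_univ, if_true, ← mul_assoc, ← hf_comm]
  simp only [Fin.sum_univ_three, dot, mul_add, add_mul, mul_assoc]

theorem star_rf (r : Fin 3 → HQ) : star (rf r) = rf r := by
  ext1 i j
  rw [star_apply, rf, of_apply, of_apply, star_sub, star_mul, star_mul, star_star,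
    show star hf = hf from rfl, ← hf_comm]
  split_ifs with h h' h'
  exacts [by rw [star_one], absurd h.symm h', absurd h'.symm h, by rw [star_zero]]

theorem rf_mul_self {r : Fin 3 → HQ} (h : dot r r = 4) : rf r * rf r = 1 := by
  refine Matrix.ext_iff_vecMul.2 fun x => ?_
  rw [← vecMul_vecMul, vecMul_rf, vecMul_rf, vecMul_one]
  have : dot (fun t => x t - hf * dot x r * r t) r = -dot x r := by
    have h1 : hf * dot x r * dot r r = 2 * dot x r := by
      rw [h, show (4 : HQ) = 2 * 2 by norm_num, ← mul_assoc, mul_assoc hf, hf_mul_two, mul_two,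
        two_mul]
    generalize hf * dot x r = c at h1
    simp only [dot] at h1 ⊢
    linear_combination (norm := noncomm_ring) -h1
  funext t
  rw [this]; noncomm_ring

/-- The unitary group. -/
abbrev U3 := unitary M3

/-- The reflection. -/
def rfU (r : Fin 3 → HQ) (h : dot r r = 4) : U3 :=
  ⟨rf r, by rw [star_rf]; exact rf_mul_self h, by rw [star_rf]; exact rf_mul_self h⟩

/-- The automorphisms of the lattice. -/
def autL : Subgroup U3 where
  carrier := {g | (∀ x ∈ L0, x ᵥ* star g.1 ∈ L0) ∧ ∀ x ∈ L0, x ᵥ* g.1 ∈ L0}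
  one_mem' := ⟨fun x hx => by simpa using hx, fun x hx => by simpa using hx⟩
  mul_mem' := fun {g g'} h h' => ⟨fun x hx => by
    rw [Submonoid.coe_mul, star_mul, ← vecMul_vecMul]; exact h.1 _ (h'.1 x hx), fun x hx => by
    rw [Submonoid.coe_mul, ← vecMul_vecMul]; exact h'.2 _ (h.2 x hx)⟩
  inv_mem' := fun {g} h => ⟨fun x hx => by
    rw [← Unitary.star_eq_inv, Unitary.coe_star, star_star]; exact h.2 x hx, h.1⟩

/-- The action on the lattice. -/
def actL : autL →* Equiv.Perm L0 where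
  toFun g := ⟨fun x => ⟨x ᵥ* star g.1.1, g.2.1 _ x.2⟩, fun x => ⟨x ᵥ* g.1.1, g.2.2 _ x.2⟩,
    fun x => Subtype.ext (by simp), fun x => Subtype.ext (by simp)⟩
  map_one' := Equiv.ext fun x => Subtype.ext (by simp)
  map_mul' _ _ := Equiv.ext fun x => Subtype.ext (by simp)

theorem actL_injective : Function.Injective actL := (injective_iff_map_eq_one _).2 fun g h => by
  refine Subtype.ext (Subtype.ext (star_injective (Matrix.ext fun i j => ?_)))
  have := congrArg (fun f : Equiv.Perm L0 => hf * (f ⟨Pi.single i 2, by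
    revert i; decide +kernel⟩).1 j) h
  simp only [actL, MonoidHom.coe_mk, OneHom.coe_mk, Equiv.coe_fn_mk, single_vecMul,
    Equiv.Perm.coe_one, id] at this
  rw [Pi.smul_apply, smul_eq_mul, hf_two] at this
  refine this.trans ?_
  change _ = star (1 : M3) i j
  rw [star_one, one_apply, Pi.single_apply]
  split_ifs with h h' h'
  exacts [by simpa using hf_two 1, absurd h.symm h', absurd h'.symm h, mul_zero _]

/-- The group generated by the reflections. -/
def Gam : Subgroup U3 := Subgroup.closure {g | ∃ r ∈ L0, dot r r = 4 ∧ g.1 = rf r}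

theorem rfU_mem {r : Fin 3 → HQ} (hr : r ∈ L0) (h : dot r r = 4) : rfU r h ∈ Gam :=
  Subgroup.subset_closure ⟨r, hr, h, rfl⟩

theorem Gam_le : Gam ≤ autL := (Subgroup.closure_le _).2 fun g ⟨r, hr, _, e⟩ => by
  have : ∀ x ∈ L0, x ᵥ* rf r ∈ L0 := fun x hx => by
    rw [vecMul_rf]; exact sub_smul_mem hx hr (hf_dot_mem hx hr)
  exact ⟨by rwa [e, star_rf], by rwa [e]⟩

/-- The action on the real lattice. -/
noncomputable def iota : Gam →* Equiv.Perm icoLeech :=
  (eqv.permCongrHom.toMonoidHom.comp actL).comp (Subgroup.inclusion Gam_le)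

theorem iota_injective : Function.Injective iota :=
  (eqv.permCongrHom.injective.comp actL_injective).comp (Subgroup.inclusion_injective Gam_le)

theorem iota_rf {g : Gam} {r : L0} (h : g.1.1 = rf r) (x : icoLeech) :
    (iota g x).1 = qrefl (eqv r) x := by
  obtain ⟨x, rfl⟩ := eqv.surjective x
  have : iota g (eqv x) = eqv (actL (Subgroup.inclusion Gam_le g) x) := by simp [iota]
  rw [this]
  funext t
  change phi ((x.1 ᵥ* star g.1.1) t) = phi (x.1 t) - ((1 / 2 : ℝ) • qip (phi ∘ x.1) (phi ∘ r.1)) *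
    phi (r.1 t)
  rw [h, star_rf, vecMul_rf, map_sub, map_mul, phi_hf_mul, phi_dot]

theorem iota_range : iota.range = twoJ2 := by
  have key : ∀ r : L0, qip (eqv r).1 (eqv r).1 = 4 ↔ dot r r = 4 := fun r => by
    rw [← phi_inj, phi_dot, map_ofNat]; rfl
  refine le_antisymm ?_ ((Subgroup.closure_le _).2 fun f ⟨r, hr, e⟩ => ?_)
  · rintro _ ⟨⟨g, hg⟩, rfl⟩
    induction hg using Subgroup.closure_induction with
    | mem g hg =>
      obtain ⟨r, hr, h, e⟩ := hg
      exact Subgroup.subset_closure ⟨eqv ⟨r, hr⟩, (key _).2 h, iota_rf e⟩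
    | one => exact (map_one iota).symm ▸ one_mem _
    | mul x y hx hy h1 h2 => exact (map_mul iota ⟨x, hx⟩ ⟨y, hy⟩).symm ▸ mul_mem h1 h2
    | inv x hx h => exact (map_inv iota ⟨x, hx⟩).symm ▸ inv_mem h
  · obtain ⟨r, rfl⟩ := eqv.surjective r
    exact ⟨⟨_, rfU_mem r.2 ((key r).1 hr)⟩, Equiv.ext fun x =>
      Subtype.ext ((iota_rf rfl x).trans (e x).symm)⟩

/-- The two versions of `2·J₂`. -/
noncomputable def gamEquiv : Gam ≃* twoJ2 :=
  (MonoidHom.ofInjective iota_injective).trans (MulEquiv.subgroupCongr iota_range)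

end Cfsg.Agent.H8.HQ
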