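import Cfsg.Agent.Lib.H8.Ico2

/-! The monomial `2`-subgroup of `2·J₂` and the diagonal automorphisms of the icosian Leech
lattice (helper8). -/

set_option autoImplicit false
open Cfsg Matrix

namespace Cfsg.Agent.H8.HQ

/-- The quaternion group. -/
abbrev Q8 := QuaternionGroup 2

/-- Rotations. -/
abbrev qa (i : ZMod 4) : Q8 := .a i
/-- Reflections. -/
abbrev qx (i : ZMod 4) : Q8 := .xa i

/-- `k`. -/
def qk : HQ := ⟨0, 0, 0, 0, 0, 0, 1, 0⟩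

/-- The Lipschitz units. -/
def kap : Q8 → HQ
  | .a i => ![1, qi, -1, -qi] i
  | .xa i => ![qj, -qk, -qj, qk] i

theorem kap_mul : ∀ x y, kap (x * y) = kap x * kap y := by decide +kernel
theorem kap_one : kap 1 = 1 := rfl
theorem kap_inv : ∀ x, kap x⁻¹ = star (kap x) := by decide +kernel
theorem kap_inj : ∀ x y, kap x = kap y → x = y := by decide +kernel
theorem kap_ne : ∀ x, kap x ≠ 0 := by decide +kernel

/-- The class modulo the centre. -/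
def cl : Q8 → ZMod 2 × ZMod 2
  | .a i => (i.val, 0)
  | .xa i => (i.val, 1)

theorem cl_mul : ∀ x y, cl (x * y) = cl x + cl y := by decide +kernel

/-- Monomial matrices with entries in `Q8`. -/
@[ext] structure W where
  (a b c : Q8) (e : Bool)
deriving DecidableEq

instance W.instFintype : Fintype W := Fintype.ofEquiv (Q8 × Q8 × Q8 × Bool)
  ⟨fun x => ⟨x.1, x.2.1, x.2.2.1, x.2.2.2⟩, fun w => (w.a, w.b, w.c, w.e), fun _ => rfl, fun _ => rfl⟩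
instance W.instOne : One W := ⟨⟨1, 1, 1, false⟩⟩
instance W.instMul : Mul W := ⟨fun x y => ⟨x.a * y.a, x.b * cond x.e y.c y.b,
  x.c * cond x.e y.b y.c, xor x.e y.e⟩⟩
instance W.instInv : Inv W := ⟨fun x => ⟨x.a⁻¹, cond x.e x.c⁻¹ x.b⁻¹, cond x.e x.b⁻¹ x.c⁻¹, x.e⟩⟩

theorem W.mul_def (x y : W) : x * y = ⟨x.a * y.a, x.b * cond x.e y.c y.b,
  x.c * cond x.e y.b y.c, xor x.e y.e⟩ := rfl

instance W.instGroup : Group W := Group.ofLeftAxioms
  (fun ⟨_, _, _, e⟩ ⟨_, _, _, e'⟩ _ => by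
    cases e <;> cases e' <;> simp [W.mul_def, mul_assoc])
  (fun _ => W.ext (one_mul _) (one_mul _) (one_mul _) (Bool.false_xor _))
  (fun ⟨_, _, _, e⟩ => by
    cases e <;> exact W.ext (inv_mul_cancel _) (inv_mul_cancel _) (inv_mul_cancel _) rfl)

/-- The classes of the first entry and of the product of the entries. -/
def clW : W →* Multiplicative (ZMod 2 × ZMod 2) × Multiplicative (ZMod 2 × ZMod 2) :=
  MonoidHom.mk' (fun w => (.ofAdd (cl w.a), .ofAdd (cl w.a + cl w.b + cl w.c)))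
    fun ⟨_, _, _, e⟩ _ => by
      cases e <;> simp [W.mul_def, cl_mul, add_comm, add_left_comm, add_assoc, mul_comm,
        mul_left_comm]

/-- The Sylow subgroup. -/
def W0 : Subgroup W := ((MonoidHom.snd _ _).comp clW).ker
/-- The centric subgroup. -/
def Q0 : Subgroup W := clW.ker

instance instDecW0 : DecidablePred (· ∈ W0) := fun w =>
  inferInstanceAs (Decidable (cl w.a + cl w.b + cl w.c = 0))
instance instDecQ0 : DecidablePred (· ∈ Q0) := fun w => inferInstanceAs (Decidable (clW w = 1))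

/-- Diagonal matrices. -/
def dg (x y z : HQ) : M3 := !![x, 0, 0; 0, y, 0; 0, 0, z]

theorem dg_mul (x y z x' y' z' : HQ) : dg x y z * dg x' y' z' = dg (x * x') (y * y') (z * z') := by
  simp [dg]

/-- The matrix. -/
def mu0 (w : W) : M3 := cond w.e !![kap w.a, 0, 0; 0, 0, kap w.b; 0, kap w.c, 0]
  (dg (kap w.a) (kap w.b) (kap w.c))

theorem mu0_mul (x y : W) : mu0 (x * y) = mu0 x * mu0 y := by
  obtain ⟨_, _, _, e⟩ := x
  obtain ⟨_, _, _, e'⟩ := y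
  cases e <;> cases e' <;> simp [mu0, dg, W.mul_def, kap_mul]

theorem mu0_one : mu0 1 = 1 := by decide +kernel

theorem mu0_inv (x : W) : star (mu0 x) = mu0 x⁻¹ := by
  obtain ⟨_, _, _, e⟩ := x
  ext1 i j
  cases e <;> fin_cases i <;> fin_cases j <;> first | exact star_zero _ | exact (kap_inv _).symm

/-- The matrix representation. -/
def mu : W →* U3 := MonoidHom.mk' (fun w => ⟨mu0 w, by
  rw [mu0_inv, ← mu0_mul, inv_mul_cancel, mu0_one], by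
  rw [mu0_inv, ← mu0_mul, mul_inv_cancel, mu0_one]⟩) fun x y => Subtype.ext (mu0_mul x y)

theorem mu_inj : Function.Injective mu := (injective_iff_map_eq_one _).2 fun ⟨x, y, z, e⟩ h => by
  have h : ∀ i j, mu0 ⟨x, y, z, e⟩ i j = mu0 1 i j := fun i j =>
    congrFun (congrFun ((congrArg Subtype.val h).trans mu0_one.symm) i) j
  cases e
  · exact W.ext (kap_inj _ _ (h 0 0)) (kap_inj _ _ (h 1 1)) (kap_inj _ _ (h 2 2)) rfl
  · exact absurd (h 1 2) (kap_ne _)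

/-- A cube root of unity. -/
def om : HQ := ⟨-1 / 2, 0, -1 / 2, 0, -1 / 2, 0, -1 / 2, 0⟩

/-- The scalar matrix of order three. -/
def tt : U3 := ⟨dg om om om, by decide +kernel, by decide +kernel⟩

/-- Conjugation by `om`. -/
def sg : Q8 → Q8
  | .a i => ![qa 0, qx 0, qa 2, qx 2] i
  | .xa i => ![qx 3, qa 3, qx 1, qa 1] i

theorem om_kap : ∀ x, om * kap x = kap (sg x) * om := by decide +kernel

/-- Conjugation by `tt`. -/
def sW (w : W) : W := ⟨sg w.a, sg w.b, sg w.c, w.e⟩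

theorem tt_mu (w : W) : tt * mu w * tt⁻¹ = mu (sW w) := by
  refine mul_inv_eq_of_eq_mul (Subtype.ext ?_)
  change dg om om om * mu0 w = mu0 (sW w) * dg om om om
  obtain ⟨_, _, _, e⟩ := w
  cases e <;> simp [mu0, dg, sW, om_kap]

theorem tt_pow_mu (k : ℕ) (w : W) : tt ^ k * mu w * (tt ^ k)⁻¹ = mu (sW^[k] w) := by
  induction k with
  | zero => simp
  | succ k ih => rw [Function.iterate_succ_apply', ← tt_mu, ← ih]; group

theorem tt_three : tt ^ 3 = 1 := Subtype.ext (by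
  change (dg om om om) ^ 3 = 1
  rw [pow_three, dg_mul, dg_mul]; decide +kernel)

/-- The real trace. -/
def rtr (A : M3) : ℚ := (A 0 0).a + (A 1 1).a + (A 2 2).a

theorem rtr_conj (g x : U3) : rtr (g * x * g⁻¹).1 = rtr x.1 := by
  have : ∀ A B : M3, rtr (A * B) = rtr (B * A) := fun A B => by
    simp only [rtr, mul_apply, Fin.sum_univ_three, add_def, mul_def]; ring
  rw [Submonoid.coe_mul, this, ← Submonoid.coe_mul, inv_mul_cancel_left]

/-- The Hurwitz units. -/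
def hurL : List HQ := [1, om, om * om].flatMap fun u =>
  [qa 0, qa 1, qa 2, qa 3, qx 0, qx 1, qx 2, qx 3].map fun x => kap x * u

theorem hur_int {p0 p1 p2 p3 q0 q1 q2 q3 : ℤ} (h0 : q0 % 2 = q1 % 2) (h1 : q1 % 2 = q2 % 2)
    (h2 : q2 % 2 = q3 % 2)
    (h8 : p0 ^ 2 + p1 ^ 2 + p2 ^ 2 + p3 ^ 2 + (q0 ^ 2 + q1 ^ 2 + q2 ^ 2 + q3 ^ 2) = 4)
    (h9 : 2 * (p0 * q0 + p1 * q1 + p2 * q2 + p3 * q3) + (q0 ^ 2 + q1 ^ 2 + q2 ^ 2 + q3 ^ 2) = 0) :
    (⟨p0 / 2, q0 / 2, p1 / 2, q1 / 2, p2 / 2, q2 / 2, p3 / 2, q3 / 2⟩ : HQ) ∈ hurL := by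
  have key : ∀ p0 ∈ [-2, -1, 0, 1, (2 : ℤ)], ∀ p1 ∈ [-2, -1, 0, 1, (2 : ℤ)],
      ∀ p2 ∈ [-2, -1, 0, 1, (2 : ℤ)], ∀ p3 ∈ [-2, -1, 0, 1, (2 : ℤ)],
      p0 ^ 2 + p1 ^ 2 + p2 ^ 2 + p3 ^ 2 = 4 → (⟨p0 / 2, (0 : ℤ) / 2, p1 / 2, (0 : ℤ) / 2, p2 / 2,
        (0 : ℤ) / 2, p3 / 2, (0 : ℤ) / 2⟩ : HQ) ∈ hurL := by decide +kernel
  have s1 : ∀ q : ℤ, (q = 0 ∧ q ^ 2 = 0) ∨ (q % 2 = 1 ∧ 1 ≤ q ^ 2) ∨ (q % 2 = 0 ∧ 4 ≤ q ^ 2) :=
    fun q => by
      rcases (by omega : q = 0 ∨ (q % 2 = 1 ∧ (q ≤ -1 ∨ 1 ≤ q)) ∨ (q % 2 = 0 ∧ (q ≤ -2 ∨ 2 ≤ q)))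
        with rfl | ⟨h, h' | h'⟩ | ⟨h, h' | h'⟩
      exacts [.inl ⟨rfl, rfl⟩, .inr (.inl ⟨h, by nlinarith⟩), .inr (.inl ⟨h, by nlinarith⟩),
        .inr (.inr ⟨h, by nlinarith⟩), .inr (.inr ⟨h, by nlinarith⟩)]
  have s2 : ∀ q : ℤ, q ^ 2 ≤ 4 → q ∈ [-2, -1, 0, 1, (2 : ℤ)] := fun q h => by
    have : -2 ≤ q ∧ q ≤ 2 := abs_le.1 (abs_le_of_sq_le_sq' h (by decide) |> abs_le.2)
    simp; omega
  have := sq_nonneg p0; have := sq_nonneg p1; have := sq_nonneg p2; have := sq_nonneg p3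
  have h10 : (q0 = 0 ∧ q1 = 0 ∧ q2 = 0 ∧ q3 = 0) ∨ 4 ≤ q0 ^ 2 + q1 ^ 2 + q2 ^ 2 + q3 ^ 2 := by
    have := s1 q0; have := s1 q1; have := s1 q2; have := s1 q3
    omega
  obtain ⟨rfl, rfl, rfl, rfl⟩ | h := h10
  · exact key p0 (s2 _ (by omega)) p1 (s2 _ (by omega)) p2 (s2 _ (by omega)) p3 (s2 _ (by omega))
      (by omega)
  · obtain rfl := pow_eq_zero_iff two_ne_zero |>.1 (by omega : p0 ^ 2 = 0)
    obtain rfl := pow_eq_zero_iff two_ne_zero |>.1 (by omega : p1 ^ 2 = 0)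
    obtain rfl := pow_eq_zero_iff two_ne_zero |>.1 (by omega : p2 ^ 2 = 0)
    obtain rfl := pow_eq_zero_iff two_ne_zero |>.1 (by omega : p3 ^ 2 = 0)
    omega

theorem mem_hurL {x y : HQ} (h1 : x ∈ ico) (h2 : x * star x = 1) (h3 : y ∈ ico)
    (e : hh * x = y * hh) : x ∈ hurL := by
  obtain ⟨n0, n1, n2, n3, n4, n5, n6, n7, rfl⟩ := mem_ico_iff.1 h1
  obtain ⟨m0, m1, m2, m3, m4, m5, m6, m7, rfl⟩ := mem_ico_iff.1 h3
  have k0 := congrArg HQ.a h2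
  have k1 := congrArg HQ.b h2
  simp only [el, mul_def, hh, star_def, one_def, HQ.mk.injEq] at e k0 k1
  obtain ⟨e0, e1, e2, e3, e4, e5, e6, e7⟩ := e
  have h6 : 2 * m4 = 2 * n2 - 2 * n3 + 2 * n4 + 3 * n6 := by
    rw [← Int.cast_inj (α := ℚ)]; push_cast; linarith
  have h7 : 2 * m5 = -2 * n2 + 2 * n5 + 3 * n7 := by
    rw [← Int.cast_inj (α := ℚ)]; push_cast; linarith
  convert hur_int (p0 := 2 * n0 + n4 + n6) (p1 := 2 * n2 + n4 + n6 - n7) (p2 := n4) (p3 := n4 + n7)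
    (q0 := 2 * n1 + n5 + n7) (q1 := 2 * n3 + n5 - n6) (q2 := n5) (q3 := n5 + n6 + n7) (by omega)
    (by omega) (by omega)
    (by rw [← Int.cast_inj (α := ℚ)]; push_cast; linear_combination 4 * k0)
    (by rw [← Int.cast_inj (α := ℚ)]; push_cast; linear_combination 4 * k1) using 1
  ext <;> simp only [el] <;> push_cast <;> ring

end Cfsg.Agent.H8.HQ
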