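import Cfsg.Agent.Lib.H8.Ico3
import Cfsg.Agent.Lib.H8.Cover

/-! The `2`-fusion system of `J₂` (helper8). -/

set_option autoImplicit false
open Cfsg Matrix Subgroup

namespace Cfsg.Agent.H8.HQ

/-- The Sylow subgroup. -/
def S2 : Subgroup U3 := W0.map mu
/-- The centric subgroup. -/
def R2 : Subgroup U3 := Q0.map mu
/-- Minus one. -/
def zW : W := ⟨qa 2, qa 2, qa 2, false⟩
/-- The centre. -/
def Z2 : Subgroup U3 := (zpowers zW).map mu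
/-- Reflections. -/
def r0 : W := ⟨qa 2, 1, 1, false⟩
/-- Reflections. -/
def r1 : W := ⟨1, qa 2, 1, false⟩
/-- Reflections. -/
def sx (x : Q8) : W := ⟨1, x, x⁻¹, true⟩

theorem mu_mem_S2 {w : W} : mu w ∈ S2 ↔ w ∈ W0 := mem_map_iff_mem mu_inj
theorem mu_mem_R2 {w : W} : mu w ∈ R2 ↔ w ∈ Q0 := mem_map_iff_mem mu_inj

theorem mem_zW {w : W} : w ∈ zpowers zW ↔ w = 1 ∨ w = zW := by
  rw [mem_zpowers_iff_mem_range_orderOf, orderOf_eq_prime (p := 2) (by decide +kernel) (by decide)]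
  simp [Finset.range_add_one, or_comm]

theorem mu_mem_Z2 {w : W} : mu w ∈ Z2 ↔ w = 1 ∨ w = zW := (mem_map_iff_mem mu_inj).trans mem_zW

theorem conj_zW (g : U3) : g * mu zW * g⁻¹ = mu zW := by
  have : (mu zW).1 = -1 := (by decide +kernel : mu0 zW = -1)
  exact mul_inv_eq_of_eq_mul (Subtype.ext (by simp [this]))

/-- The transposition of the first two coordinates. -/
def pp : U3 := rfU ![hh, -hh, 0] (by decide +kernel)

theorem pp_mem : pp ∈ Gam := rfU_mem (by decide +kernel) _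

theorem pp_mu (x y z : Q8) : pp * mu ⟨x, y, z, false⟩ * pp⁻¹ = mu ⟨y, x, z, false⟩ := by
  have : pp.1 = !![0, 1, 0; 1, 0, 0; 0, 0, 1] := (by decide +kernel : rf _ = _)
  refine mul_inv_eq_of_eq_mul (Subtype.ext ?_)
  change pp.1 * dg _ _ _ = dg _ _ _ * pp.1
  simp [this, dg]

theorem S2_le {T : Subgroup U3} (h1 : ∀ x, mu (sx x) ∈ T) (h2 : mu r0 ∈ T)
    (h3 : ∀ y ∈ T, pp * y * pp⁻¹ ∈ S2 → pp * y * pp⁻¹ ∈ T) : S2 ≤ T := by
  have h4 : ∀ x y z, (⟨y, x, z, false⟩ : W) ∈ W0 → mu ⟨x, y, z, false⟩ ∈ T →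
      mu ⟨y, x, z, false⟩ ∈ T := fun x y z h h' => by
    rw [← pp_mu]; exact h3 _ h' (by rwa [pp_mu, mu_mem_S2])
  have h5 : ∀ x, mu ⟨1, x, x⁻¹, false⟩ ∈ T := fun x => by
    simpa [← map_mul, sx, W.mul_def] using mul_mem (h1 x) (h1 1)
  have key : ∀ w ∈ W0, ∃ i j : Fin 2, w = ⟨w.a, 1, w.a⁻¹, false⟩ * ⟨1, w.b, w.b⁻¹, false⟩ *
      (sx 1 * r1 * sx 1) ^ i.1 * sx 1 ^ j.1 := by decide +kernel
  rintro _ ⟨w, hw, rfl⟩
  obtain ⟨i, j, e⟩ := key w hw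
  rw [e]
  simp only [map_mul, map_pow]
  exact mul_mem (mul_mem (mul_mem (h4 _ _ _ (by generalize w.a = x; revert x; decide) (h5 _)) (h5 _))
    (pow_mem (mul_mem (mul_mem (h1 1) (h4 _ _ _ (by decide) h2)) (h1 1)) _)) (pow_mem (h1 1) _)

theorem S2_le_Gam : S2 ≤ Gam := by
  have key : ∀ x, ![0, hh, -(hh * kap x)] ∈ L0 ∧ dot ![0, hh, -(hh * kap x)] ![0, hh, -(hh * kap x)] = 4
      ∧ mu0 (sx x) = rf ![0, hh, -(hh * kap x)] := by decide +kernel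
  exact S2_le (fun x => subset_closure ⟨_, (key x).1, (key x).2⟩)
    (subset_closure ⟨![2, 0, 0], by decide +kernel, by decide +kernel,
      (by decide +kernel : mu0 r0 = _)⟩)
    fun y hy _ => mul_mem (mul_mem pp_mem hy) (inv_mem pp_mem)

/-- Elements of order four. -/
def gM (x y : HQ) : M3 :=
  !![y, 0, 0; 0, hf + hf * x, -hf + hf * x; 0, -hf + hf * x, hf + hf * x]

theorem mem_pElts {x y : HQ} (h1 : ![kk, -x, -x] ∈ L0) (h2 : dot ![kk, -x, -x] ![kk, -x, -x] = 4)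
    (h3 : rf ![kk, -1, -1] * rf ![kk, -x, -x] = gM x y) (h4 : gM x y * gM x y = mu0 (zW * sx 1))
    {u v w : W} (h5 : gM x y * mu0 (sx (qa 1)) = mu0 u * gM x y ∧
      gM x y * mu0 (sx (qx 0)) = mu0 v * gM x y ∧ gM x y * mu0 r1 = mu0 w * gM x y ∧
      gM x y * mu0 r0 = mu0 r0 * gM x y ∧ u ∈ Q0 ∧ v ∈ Q0 ∧ w ∈ Q0) :
    ∃ g ∈ H2.pElts 2 Gam R2, g.1 = gM x y := by
  have h0 : dot ![kk, -1, -1] ![kk, -1, -1] = 4 := by decide +kernel
  obtain ⟨g, hg, e⟩ : ∃ g ∈ Gam, g.1 = gM x y :=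
    ⟨_, mul_mem (rfU_mem (by decide +kernel) h0) (rfU_mem h1 h2), h3⟩
  rw [← e] at h4 h5
  have h6 : g * g = mu (zW * sx 1) := Subtype.ext h4
  have h7 : ∀ {a b : W}, g.1 * mu0 a = mu0 b * g.1 → b ∈ Q0 →
      a ∈ (R2.comap (MulAut.conj g).toMonoidHom).comap mu := fun {a b} h hb => by
    change g * mu a * g⁻¹ ∈ R2
    rwa [mul_inv_eq_of_eq_mul (Subtype.ext h : g * mu a = mu b * g), mu_mem_R2]
  have : Finite R2 := (Set.toFinite (Q0 : Set W)).image mu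
  refine ⟨g, ⟨hg, H9.mem_normalizer_of_conj_mem ?_, 2, ?_⟩, e⟩
  · rintro _ ⟨a, ha, rfl⟩
    have key : ∀ a ∈ Q0, ∃ i j k l m n : Fin 2, a = sx (qa 1) ^ i.1 * sx (qx 0) ^ j.1 * r1 ^ k.1 *
      r0 ^ l.1 * (zW * sx 1) ^ m.1 * zW ^ n.1 := by decide +kernel
    obtain ⟨i, j, k, l, m, n, rfl⟩ := key a ha
    obtain ⟨k1, k2, k3, k4, hu, hv, hw⟩ := h5
    change _ ∈ (R2.comap (MulAut.conj g).toMonoidHom).comap mu
    refine mul_mem (mul_mem (mul_mem (mul_mem (mul_mem (pow_mem (h7 k1 hu) _) (pow_mem (h7 k2 hv) _))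
      (pow_mem (h7 k3 hw) _)) (pow_mem (h7 k4 (by decide)) _))
      (pow_mem (h7 (b := zW * sx 1) ?_ (by decide)) _)) (pow_mem (h7 (b := zW) ?_ (by decide)) _)
    · rw [← h4, mul_assoc]
    · exact congrArg Subtype.val (mul_inv_eq_iff_eq_mul.1 (conj_zW g))
  · rw [show 2 ^ 2 = 2 * 2 from rfl, pow_mul, pow_two g, h6, ← map_pow,
      (by decide : (zW * sx 1) ^ 2 = 1), map_one]

theorem tt_mem : tt ∈ closure (H2.pElts 2 Gam R2) := by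
  obtain ⟨g, hg, e⟩ := mem_pElts (x := qi) (y := ⟨0, 0, -1/2, 0, -1/2, 1/2, 0, -1/2⟩)
    (by decide +kernel) (by decide +kernel) (by decide +kernel) (by decide +kernel)
    (u := ⟨1, 1, qa 2, false⟩) (v := ⟨1, qx 3, qx 1, true⟩) (w := ⟨1, qa 1, qa 3, true⟩)
    (by decide +kernel)
  obtain ⟨g', hg', e'⟩ := mem_pElts (x := qj) (y := ⟨0, 0, 0, -1/2, -1/2, 0, -1/2, 1/2⟩)
    (by decide +kernel) (by decide +kernel) (by decide +kernel) (by decide +kernel)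
    (u := ⟨1, qx 1, qx 3, true⟩) (v := ⟨1, 1, qa 2, false⟩) (w := ⟨1, qx 0, qx 2, true⟩)
    (by decide +kernel)
  have h1 : ∀ w ∈ W0, mu w ∈ closure (H2.pElts 2 Gam R2) := fun w hw =>
    subset_closure ⟨S2_le_Gam (mu_mem_S2.2 hw), le_normalizer_map mu
      ⟨w, (normalizer_eq_top clW.ker).ge trivial, rfl⟩, 3, by
        rw [← map_pow, (by decide +kernel : ∀ w : W, w ^ 2 ^ 3 = 1), map_one]⟩
  have h2 : g * (mu ⟨qx 1, 1, qx 1, false⟩ * g') = mu ⟨qx 2, qx 1, qa 3, true⟩ * tt :=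
    Subtype.ext (by
      change g.1 * (mu0 _ * g'.1) = mu0 _ * dg om om om
      rw [e, e']; decide +kernel)
  rw [← mul_mem_cancel_left (h1 ⟨qx 2, qx 1, qa 3, true⟩ (by decide)), ← h2]
  exact mul_mem (subset_closure hg) (mul_mem (h1 _ (by decide)) (subset_closure hg'))

theorem tt_mem_Gam : tt ∈ Gam := (closure_le Gam).2 (fun _ h => h.1) tt_mem

theorem dg_mem {g : U3} (hg : g ∈ autL) {a b c : HQ} (e : g.1 = dg a b c) :
    (a ∈ hurL ∧ b ∈ hurL ∧ c ∈ hurL) ∧ hf * ((hh * a + -hh * b + 0 * c) * hh) ∈ ico ∧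
      hf * ((kk * a + 1 * b + -1 * c) * hh) ∈ ico := by
  have h1 : ∀ x y z, ![x, y, z] ∈ L0 → ![x * a, y * b, z * c] ∈ L0 := fun x y z h => by
    convert hg.2 _ h using 1
    simp [e, dg]
  have h2 := Unitary.coe_mul_star_self g
  rw [Unitary.coe_star, e] at h2
  have h3 := fun i => congrFun (congrFun h2 i) i
  have k0 := h3 0
  have k1 := h3 1
  have k2 := h3 2
  simp [dg, mul_apply, Fin.sum_univ_three] at k0 k1 k2
  have l1 := h1 1 kk (-1) (by decide +kernel)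
  have l2 := h1 kk 1 (-1) (by decide +kernel)
  have l3 := h1 hh (-hh) 0 (by decide +kernel)
  obtain ⟨-, ⟨y, hy, e1⟩, ⟨z, hz, e2⟩, -⟩ := mem_L0.1 (h1 hh 0 (-hh) (by decide +kernel))
  obtain ⟨-, -, ⟨u, hu, e3⟩, -⟩ := mem_L0.1 l3
  refine ⟨⟨mem_hurL (by simpa using l1.1 0) k0 hy (by simpa using e1),
    mem_hurL (by simpa using l2.1 1) k1 (neg_mem hu) (by simpa [neg_eq_iff_eq_neg] using e3),
    mem_hurL (by simpa using l2.1 2) k2 hz (by simpa using e2)⟩, l3.2.2.2, l2.2.2.2⟩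

theorem diag_class {g : U3} (hg : g ∈ Gam) {a b c : HQ} (e : g.1 = dg a b c) :
    ∃ k : Fin 3, g * tt ^ k.1 ∈ S2 := by
  have h1 : ∀ a ∈ hurL, ∃ k : Fin 3, ∃ x, a * om ^ k.1 = kap x := by decide +kernel
  have h2 : ∀ b ∈ hurL, hf * ((hh * 1 + -hh * b + 0) * hh) ∈ ico → ∃ x, b = kap x := by
    decide +kernel
  have h3 : ∀ c ∈ hurL, hf * ((kk * 1 + 1 * 1 + -1 * c) * hh) ∈ ico →
      ∃ x, c = kap x ∧ cl 1 + cl 1 + cl x = 0 := by decide +kernel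
  have h4 : ∀ k : ℕ, (tt ^ k).1 = dg (om ^ k) (om ^ k) (om ^ k) := fun k => by
    induction k with
    | zero => decide +kernel
    | succ k ih => rw [pow_succ, Submonoid.coe_mul, ih, pow_succ]; exact dg_mul _ _ _ _ _ _
  obtain ⟨k, x, hx⟩ := h1 a (dg_mem (Gam_le hg) e).1.1
  have m1 : mu ⟨x⁻¹, 1, x, false⟩ ∈ S2 := mu_mem_S2.2 (by clear hx; revert x; decide)
  have hg1 := mul_mem (S2_le_Gam m1) (mul_mem hg (pow_mem tt_mem_Gam k.1))
  have e1 : (mu ⟨x⁻¹, 1, x, false⟩ * (g * tt ^ k.1)).1 =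
      dg 1 (kap 1 * (b * om ^ k.1)) (kap x * (c * om ^ k.1)) := by
    change dg _ _ _ * (g.1 * (tt ^ k.1).1) = _
    rw [e, h4, dg_mul, dg_mul, hx, ← kap_mul, inv_mul_cancel, kap_one]
  obtain ⟨⟨-, hb, -⟩, hb', -⟩ := dg_mem (Gam_le hg1) e1
  obtain ⟨y, hy⟩ := h2 _ hb (by rwa [zero_mul] at hb')
  have m2 : mu ⟨1, y⁻¹, y, false⟩ ∈ S2 := mu_mem_S2.2 (by clear hy; revert y; decide)
  have e2 : (mu ⟨1, y⁻¹, y, false⟩ * (mu ⟨x⁻¹, 1, x, false⟩ * (g * tt ^ k.1))).1 =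
      dg 1 1 (kap y * (kap x * (c * om ^ k.1))) := by
    rw [Submonoid.coe_mul, e1, hy]
    change dg _ _ _ * _ = _
    rw [dg_mul, ← kap_mul, inv_mul_cancel, kap_one, mul_one]
  obtain ⟨⟨-, -, hc⟩, -, hc'⟩ := dg_mem (Gam_le (mul_mem (S2_le_Gam m2) hg1)) e2
  obtain ⟨z, hz, hz'⟩ := h3 _ hc hc'
  refine ⟨k, (mul_mem_cancel_left m1).1 ((mul_mem_cancel_left m2).1
    ⟨⟨1, 1, z, false⟩, hz', Subtype.ext ?_⟩)⟩
  rw [e2, hz]; rfl

theorem class_of_comm {g : U3} (hg : g ∈ Gam) (h0 : g * mu r0 * g⁻¹ = mu r0)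
    (h1 : g * mu r1 * g⁻¹ = mu r1) : ∃ k : Fin 3, g * tt ^ k.1 ∈ S2 := by
  have k0 : g.1 * dg (-1) 1 1 = dg (-1) 1 1 * g.1 := congrArg Subtype.val (mul_inv_eq_iff_eq_mul.1 h0)
  have k1 : g.1 * dg 1 (-1) 1 = dg 1 (-1) 1 * g.1 := congrArg Subtype.val (mul_inv_eq_iff_eq_mul.1 h1)
  rw [eta_fin_three g.1] at k0 k1
  simp only [dg, mul_fin_three, mul_one, mul_zero, add_zero, zero_add, mul_neg, neg_mul, one_mul,
    zero_mul, EmbeddingLike.apply_eq_iff_eq, vecCons_inj, and_true, true_and] at k0 k1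
  refine diag_class hg (a := g.1 0 0) (b := g.1 1 1) (c := g.1 2 2) ?_
  obtain ⟨⟨a1, a2⟩, a3, a4⟩ := k0
  obtain ⟨-, ⟨-, a5⟩, a6⟩ := k1
  rw [eta_fin_three g.1, eq_zero_of_eq_neg a1, eq_zero_of_eq_neg a2, eq_zero_of_eq_neg a3.symm,
    eq_zero_of_eq_neg a4.symm, eq_zero_of_eq_neg a5, eq_zero_of_eq_neg a6.symm]
  rfl

theorem exists_conj {g : U3} (hg : g ∈ normalizer (S2 : Set U3)) {w : W} (hw : w ∈ W0) {P : W → Prop}
    (h1 : ∀ y ∈ W0, P (y * w * y⁻¹ * w⁻¹)) (h2 : ∀ u, P u → g * mu u * g⁻¹ = mu u) :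
    ∃ v ∈ W0, mu v = g * mu w * g⁻¹ ∧ rtr (mu0 v) = rtr (mu0 w) ∧
      ∀ y ∈ W0, P (y * v * y⁻¹ * v⁻¹) := by
  obtain ⟨v, hv, e⟩ := H9.conj_mem_of_mem_normalizer hg (mu_mem_S2.2 hw)
  refine ⟨v, hv, e, (congrArg (fun x : U3 => rtr x.1) e).trans (rtr_conj _ _), fun y hy => ?_⟩
  obtain ⟨u, hu, e'⟩ := H9.conj_mem_of_mem_normalizer' hg (mu_mem_S2.2 hy)
  convert h1 u hu using 1
  refine mu_inj ?_
  rw [← h2 _ (h1 u hu)]
  simp only [map_mul, map_inv, e, e']; group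

theorem normalizer_class {g : U3} (hg : g ∈ Gam) (hn : g ∈ normalizer (S2 : Set U3)) :
    ∃ k : ℕ, g * tt ^ k ∈ S2 := by
  have k1 : ∀ v ∈ W0, rtr (mu0 v) = rtr (mu0 r0) → (∀ y ∈ [sx 1, ⟨qa 1, qa 3, 1, false⟩,
    ⟨qx 0, qx 2, 1, false⟩], y * v * y⁻¹ * v⁻¹ = 1) → v = r0 := by decide +kernel
  have k2 : ∀ v ∈ W0, rtr (mu0 v) = rtr (mu0 r1) → (∀ y ∈ [sx 1, ⟨qa 1, qa 3, 1, false⟩,
    ⟨qx 0, qx 2, 1, false⟩], y * v * y⁻¹ * v⁻¹ = 1 ∨ y * v * y⁻¹ * v⁻¹ = zW * r0) →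
      v = r0 ∨ v = r1 ∨ sx 1 * v * (sx 1)⁻¹ = r1 := by decide +kernel
  have k3 : ∀ y ∈ [sx 1, ⟨qa 1, qa 3, 1, false⟩, ⟨qx 0, qx 2, 1, false⟩], y ∈ W0 := by
    decide +kernel
  obtain ⟨v, hv, e0, h1, h2⟩ := exists_conj hn (w := r0) (by decide) (P := (· = 1))
    (by decide +kernel) (fun u h => by simp [h])
  rw [k1 v hv h1 fun y hy => h2 y (k3 y hy)] at e0
  obtain ⟨v, hv, e1, h1, h2⟩ := exists_conj hn (w := r1) (by decide)
    (P := fun u => u = 1 ∨ u = zW * r0) (by decide +kernel) (by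
      rintro _ (rfl | rfl)
      · simp
      · conv_rhs => rw [map_mul, ← conj_zW g, e0]
        rw [map_mul]; group)
  obtain rfl | rfl | h := k2 v hv h1 fun y hy => h2 y (k3 y hy)
  · exact absurd (mu_inj (by simpa using e0.symm.trans e1)) (by decide : r0 ≠ r1)
  · exact (class_of_comm hg e0.symm e1.symm).elim fun k hk => ⟨k, hk⟩
  · have hs : mu (sx 1) ∈ S2 := mu_mem_S2.2 (by decide)
    obtain ⟨k, hk⟩ := class_of_comm (mul_mem (S2_le_Gam hs) hg) (by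
      conv_rhs => rw [← (by decide : sx 1 * r0 * (sx 1)⁻¹ = r0), map_mul, map_mul, map_inv, e0]
      group) (by
      conv_rhs => rw [← h, map_mul, map_mul, map_inv, e1]
      group)
    exact ⟨k, by rwa [mul_assoc, mul_mem_cancel_left hs] at hk⟩

theorem centric {c : U3} (hc : c ∈ Gam) (h : ∀ r ∈ R2, r * c * r⁻¹ * c⁻¹ ∈ Z2) : c ∈ R2 := by
  have h1 : ∀ y ∈ Q0, c * mu y * c⁻¹ = mu y ∨ c * mu y * c⁻¹ = mu (y * zW) := fun y hy => by
    obtain ⟨u, hu, e⟩ := h _ (inv_mem (mu_mem_R2.2 hy))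
    have : c * mu y * c⁻¹ = mu (y * u) := by rw [map_mul, e]; group
    rcases mem_zW.1 hu with rfl | rfl
    exacts [.inl (by rw [this, mul_one]), .inr this]
  have h2 : ∀ y ∈ Q0, rtr (mu0 (y * zW)) ≠ rtr (mu0 y) → c * mu y * c⁻¹ = mu y := fun y hy h' =>
    (h1 y hy).resolve_right fun e => h' ((congrArg (fun x : U3 => rtr x.1) e).symm.trans (rtr_conj _ _))
  obtain ⟨k, w, hw, e⟩ := class_of_comm hc (h2 _ (by decide) (by decide +kernel))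
    (h2 _ (by decide) (by decide +kernel))
  have key : ∀ k : Fin 3, ∀ w ∈ W0, (∀ y ∈ [sx 1, sx (qa 1), sx (qx 0)], w * y * w⁻¹ = sW^[k.1] y ∨
      w * y * w⁻¹ = sW^[k.1] y * zW) → k = 0 ∧ w ∈ Q0 := by decide +kernel
  obtain ⟨rfl, hw'⟩ := key k w hw fun y hy => by
    have e' : mu (w * y * w⁻¹) = c * mu (sW^[k.1] y) * c⁻¹ := by
      rw [← tt_pow_mu]; simp only [map_mul, map_inv, e]; group
    exact (h1 (sW^[k.1] y) (by clear e e'; revert k y; decide +kernel)).imp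
      (fun h => mu_inj (e'.trans h)) fun h => mu_inj (e'.trans h)
  exact ⟨w, hw', by simpa using e⟩

theorem Z2_le : Z2 ≤ R2 := map_mono (zpowers_le.2 (by decide))

theorem mem_center_Gam {g : Gam} : g ∈ center Gam ↔ g.1 ∈ Z2 := by
  refine ⟨fun h => ?_, fun ⟨u, hu, e⟩ => mem_center_iff.2 fun x => Subtype.ext ?_⟩
  · have h1 : ∀ w ∈ W0, mu w * g = g * mu w := fun w hw =>
      congrArg Subtype.val (mem_center_iff.1 h ⟨_, S2_le_Gam (mu_mem_S2.2 hw)⟩)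
    obtain ⟨w, hw, e⟩ := centric g.2 (by
      rintro _ ⟨y, hy, rfl⟩
      rw [h1 y (congrArg Prod.snd hy)]; simp)
    have h2 : pp * g = g * pp := congrArg Subtype.val (mem_center_iff.1 h ⟨_, pp_mem⟩)
    rw [← e] at h1 h2 ⊢
    simp only [← map_mul, mu_inj.eq_iff] at h1
    have key : ∀ w ∈ Q0, r1 * w = w * r1 → sx 1 * w = w * sx 1 → w.e = false ∧
      (w.b = w.a → w = 1 ∨ w = zW) := by decide +kernel
    obtain ⟨h3, h4⟩ := key w hw (h1 _ (by decide)) (h1 _ (by decide))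
    obtain ⟨x, y, z, _⟩ := w
    obtain rfl := h3
    exact mu_mem_Z2.2 (h4 (congrArg W.a
      (mu_inj ((pp_mu x y z).symm.trans (mul_inv_eq_of_eq_mul h2)))))
  · change x.1 * g.1 = g.1 * x.1
    rcases mem_zW.1 hu with rfl | rfl
    · simp [← e]
    · rw [← e]; exact mul_inv_eq_iff_eq_mul.1 (conj_zW _)

theorem simpleFus_J2 {Y : Type*} [Group Y] [Finite Y] (π : Gam →* Y) (hπ : Function.Surjective π)
    (h : π.ker = center Gam) : H2.SimpleFus 2 Y := by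
  refine simpleFus_of_cover (S := S2) π hπ (fun g => by rw [← mem_center_Gam, ← h]; rfl) Z2_le
    (map_mono fun w hw => congrArg Prod.snd hw) S2_le_Gam
    (IsPGroup.map (fun w => ⟨3, Subtype.ext ((by decide +kernel : ∀ w : W, w ^ 2 ^ 3 = 1) w)⟩) mu)
    (fun h => absurd (mu_mem_Z2.1 (h (mu_mem_S2.2 (by decide : r0 ∈ W0)))) (by decide))
    (fun T hT hZ ⟨w, hw, h1, h2⟩ h3 => ?_) (fun c => centric) tt_mem ?_ (tt_three ▸ one_mem _)
    fun g => normalizer_class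
  · obtain ⟨w, hw0, rfl⟩ := hT hw
    have key : ∀ v ∈ W0, ¬ (v = 1 ∨ v = zW) → (∀ y ∈ [sx 1, ⟨qa 1, qa 3, 1, false⟩,
      ⟨qx 0, qx 2, 1, false⟩], y * v * y⁻¹ * v⁻¹ = 1 ∨ y * v * y⁻¹ * v⁻¹ = zW) →
        r0 = v ∨ r0 = v * zW := by decide +kernel
    have k3 : ∀ y ∈ [sx 1, ⟨qa 1, qa 3, 1, false⟩, ⟨qx 0, qx 2, 1, false⟩], y ∈ W0 := by
      decide +kernel
    have h4 : mu r0 ∈ T := by
      rcases key w hw0 (mt mu_mem_Z2.2 h1) fun y hy => mu_mem_Z2.1 (by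
        simpa only [map_mul, map_inv] using h2 _ (mu_mem_S2.2 (k3 y hy))) with e | e
      · rwa [e]
      · rw [e, map_mul]; exact mul_mem hw (hZ (mu_mem_Z2.2 (.inr rfl)))
    have h5 : mu (sx 1) ∈ T := by
      have hr : ![kk, 1, -1] ∈ L0 := by decide +kernel
      have hd : dot ![kk, 1, -1] ![kk, 1, -1] = 4 := by decide +kernel
      have : rfU _ hd * mu r0 * (rfU _ hd)⁻¹ = mu (sx 1) := mul_inv_eq_of_eq_mul (Subtype.ext
        (by decide +kernel : rf ![kk, 1, -1] * mu0 r0 = mu0 (sx 1) * rf ![kk, 1, -1]))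
      rw [← this]
      exact h3 _ h4 _ (rfU_mem hr hd) (by rw [this, mu_mem_S2]; decide)
    refine S2_le (fun x => ?_) h4 fun y hy => h3 y hy pp pp_mem
    have : mu ⟨x⁻¹, x, 1, false⟩ * mu (sx 1) * (mu ⟨x⁻¹, x, 1, false⟩)⁻¹ = mu (sx x) := by
      rw [← map_inv, ← map_mul, ← map_mul]; congr 1; revert x; decide
    rw [← this]
    exact h3 _ h5 _ (S2_le_Gam (mu_mem_S2.2 (by clear this; revert x; decide)))
      (by rw [this, mu_mem_S2]; clear this; revert x; decide)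
  · have : Finite S2 := (Set.toFinite (W0 : Set W)).image mu
    refine H9.mem_normalizer_of_conj_mem ?_
    rintro _ ⟨w, hw, rfl⟩
    rw [tt_mu, mu_mem_S2]
    exact (by decide +kernel : ∀ w ∈ W0, sW w ∈ W0) w hw

end Cfsg.Agent.H8.HQ
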